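import Cfsg.Agent.Known.Bridge

/-! Small subgroups listed by words, fixed point counts (helper25): `enum`, `conj_of_list`, `actBy_tab`,
`sum_fix`, `burn`, `burn_le`, `fix_modEq`, `comm_mem`, `heis_index`. -/

set_option autoImplicit false

namespace Cfsg.Agent.Known

open Cfsg.Agent.Comp Subgroup MulAction
open scoped commutatorElement Pointwise

section
variable {G X : Type*} [Group G] [MulAction G X] {P : ℕ → X → Prop} {x : ℕ → G} {act : ℕ → ℕ → ℕ} {B : List ℕ}

/-- the images of the base. -/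
def sg (act : ℕ → ℕ → ℕ) (B w : List ℕ) : List ℕ := B.map (actW act w)

/-- the words `ws` list a subgroup. -/
theorem enum [Finite G] (hP : IsCanon P) (hA : ActBy x P act) (hB : IsBase G P B) (hB' : ∀ b ∈ B, ∃ y, P b y) (m : ℕ)
    (ws : List (List ℕ)) (h : [] ∈ ws ∧ (∀ w ∈ ws, ∀ l ∈ w, l < m) ∧ (∀ j < m, ∀ w ∈ ws, sg act B (j :: w) ∈ ws.map (sg act B)) ∧
      (ws.map (sg act B)).Nodup) :
    ∃ S : Subgroup G, (∀ g, g ∈ S ↔ ∃ w ∈ ws, W x w = g) ∧ (∀ j < m, x j ∈ S) ∧ Nat.card S = ws.length := by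
  classical
  obtain ⟨h1, h2, h3, h4⟩ := h
  have k : ∀ g, g ∈ closure (x '' Set.Iio m) ↔ ∃ w ∈ ws, W x w = g := fun g => ⟨fun hg => by
    replace hg : g ∈ Submonoid.closure (x '' Set.Iio m) := closure_toSubmonoid_of_finite (s := x '' Set.Iio m) ▸ hg
    induction hg using Submonoid.closure_induction_left with
    | one => exact ⟨[], h1, rfl⟩
    | mul_left a ha b _ ih =>
      obtain ⟨j, hj, rfl⟩ := ha
      obtain ⟨w, hw, rfl⟩ := ih
      obtain ⟨v, hv, e⟩ := List.mem_map.1 (h3 j hj w hw)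
      exact ⟨v, hv, (eq_of_eqB hP.func hA hB (allL_iff.2 fun b hb => nbeq.2 (List.map_inj_left.1 e b hb))).trans
        (W_cons _ _ _)⟩, by
    rintro ⟨w, hw, rfl⟩; exact W_mem _ fun l hl => subset_closure ⟨l, h2 w hw l hl, rfl⟩⟩
  refine ⟨_, k, fun j hj => subset_closure ⟨j, hj, rfl⟩, ?_⟩
  have h5 : (ws.map (W x)).Nodup := (h4.of_map _).map_on fun u hu v hv e => List.inj_on_of_nodup_map h4 hu hv
    (List.map_inj_left.2 fun b hb => let ⟨_, hy⟩ := hB' b hb; hP.canon (actW_spec hA u hy) (e ▸ actW_spec hA v hy))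
  rw [← List.length_map (W x), ← List.toFinset_card_of_nodup h5, ← Nat.card_eq_finsetCard]
  exact Nat.card_congr (Equiv.subtypeEquivRight fun g => by simp [k])

theorem conj_of_list (hP : IsCanon P) (hA : ActBy x P act) (hB : IsBase G P B) (s : List ℕ) {tl : List (List ℕ)}
    (cs : List (List ℕ)) (h : tl.length = cs.length ∧ ∀ p ∈ tl.zip cs, eqB act B (p.2 ++ s) (p.1 ++ p.2) = true) {g : G}
    (hg : ∃ w ∈ [] :: tl, W x w = g) (h1 : g ≠ 1) : IsConj (W x s) g := by
  obtain ⟨w, hw, rfl⟩ := hg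
  rcases List.mem_cons.1 hw with rfl | hw
  · exact absurd rfl h1
  obtain ⟨c, hc⟩ := forall₂_exists_right (List.forall₂_iff_zip.2 ⟨h.1, fun {a b} hab => h.2 (a, b) hab⟩) hw
  have := eq_of_eqB hP.func hA hB hc
  rw [W_append, W_append] at this
  exact isConj_iff.2 ⟨W x c, by rw [this, mul_inv_cancel_right]⟩
end

/-- tables for words. -/
theorem actBy_tab {G : Type*} [Group G] [MulAction G ℕ] {N : ℕ} {y : ℕ → G} {act : ℕ → ℕ → ℕ} (hA : ActBy y (PtN N) act)
    (w : ℕ) (d : List ℕ × ℕ) (ws : List (List ℕ × ℕ))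
    (h : ∀ p ∈ d :: ws, ∀ i < N, get2 w p.2 i = actW act p.1 i) :
    ActBy (fun j => W y (nthL d ws j).1) (PtN N) fun j => get2 w (nthL d ws j).2 := by
  rintro j _ a _ rfl ⟨rfl, ha⟩
  have := actW_spec hA (nthL d ws j).1 (show PtN N a a from ⟨rfl, ha⟩)
  rwa [← h _ ((nthL_mem_or d ws j).elim (List.mem_cons_of_mem _) fun e => e.symm ▸ List.mem_cons_self) a ha] at this

section
variable {G : Type*} (Ω : Type*) [Group G] [MulAction G Ω] [Finite Ω]

theorem fix_conj {s g : G} (h : IsConj s g) : (fixedBy Ω g).ncard = (fixedBy Ω s).ncard := by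
  obtain ⟨c, rfl⟩ := isConj_iff.1 h
  rw [← smul_fixedBy, Set.ncard_smul_set]

theorem fix_lt [FaithfulSMul G Ω] {g : G} (h : g ≠ 1) : (fixedBy Ω g).ncard < Nat.card Ω := by
  rw [← Set.ncard_univ]
  exact Set.ncard_lt_ncard (Set.ssubset_univ_iff.2 fun e => h (fixedBy_eq_univ_iff_eq_one.1 e))

theorem sum_fix (S : Subgroup G) [Fintype S] {s : G} (h : ∀ g ∈ S, g ≠ 1 → IsConj s g) :
    ∑ g : S, (fixedBy Ω g).ncard = Nat.card Ω + (Nat.card S - 1) * (fixedBy Ω s).ncard := by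
  classical
  rw [← Finset.add_sum_erase _ _ (Finset.mem_univ 1), fixedBy_one_eq_univ, Set.ncard_univ,
    Finset.sum_const_nat (m := (fixedBy Ω s).ncard) (f := fun g : S => (fixedBy Ω g).ncard) fun g hg =>
      fix_conj Ω (h g g.2 fun e => (Finset.mem_erase.1 hg).1 (Subtype.ext e)),
    Finset.card_erase_of_mem (Finset.mem_univ _), Finset.card_univ, Nat.card_eq_fintype_card (α := S)]

theorem burn (S : Subgroup G) [Finite S] {s : G} (h : ∀ g ∈ S, g ≠ 1 → IsConj s g) :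
    Nat.card S ∣ Nat.card Ω + (Nat.card S - 1) * (fixedBy Ω s).ncard := by
  classical
  have := Fintype.ofFinite S
  have := Fintype.ofFinite Ω
  have := Fintype.ofFinite (Quotient (orbitRel S Ω))
  have h1 := sum_card_fixedBy_eq_card_orbits_mul_card_group S Ω
  simp only [← Nat.card_eq_fintype_card, Nat.card_coe_set_eq] at h1
  rw [← sum_fix Ω S h, h1]; exact Dvd.intro_left _ rfl

theorem burn_le (S : Subgroup G) [Finite S] {s : G} (h : ∀ g ∈ S, g ≠ 1 → IsConj s g) {c : ℕ}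
    (hc : ∀ ω : Ω, Nat.card (stabilizer S ω) ≤ c) :
    Nat.card Ω + (Nat.card S - 1) * (fixedBy Ω s).ncard ≤ Nat.card Ω * c := by
  classical
  have := Fintype.ofFinite S
  have := Fintype.ofFinite Ω
  have e : ∑ g : S, (fixedBy Ω g).ncard = ∑ ω : Ω, Nat.card (stabilizer S ω) := by
    simp only [← Nat.card_coe_set_eq, Nat.card_eq_fintype_card, Fintype.card_subtype, Finset.card_filter]
    exact Finset.sum_comm
  rw [← sum_fix Ω S h, e, Nat.card_eq_fintype_card, ← Finset.card_univ, ← smul_eq_mul]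
  exact Finset.sum_le_card_nsmul _ _ _ fun ω _ => hc ω

theorem fix_modEq {g : G} {p : ℕ} [Fact p.Prime] (hg : g ^ p = 1) {A : Set Ω} (hA : ∀ a ∈ A, g • a ∈ A) :
    A.ncard ≡ (A ∩ fixedBy Ω g).ncard [MOD p] := by
  classical
  have := Fintype.ofFinite A
  let f : Function.End A := fun a => ⟨g • a.1, hA a a.2⟩
  have k : ∀ n a, ((f ^ n) a).1 = g ^ n • a.1 := fun n => by
    induction n with
    | zero => intro a; simp; rfl
    | succ n ih => intro a; rw [pow_succ, pow_succ, mul_smul]; exact ih (f a)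
  have := Equiv.Perm.card_fixedPoints_modEq (f := f) (p := p) (n := 1)
    (funext fun a => Subtype.ext (by rw [k, pow_one, hg, one_smul]; rfl))
  rw [← Nat.card_eq_fintype_card, ← Nat.card_eq_fintype_card, Nat.card_coe_set_eq, Nat.card_coe_set_eq,
    ← Set.ncard_image_of_injective f.fixedPoints Subtype.val_injective] at this
  convert this using 2
  ext a
  exact ⟨fun h => ⟨⟨a, h.1⟩, Subtype.ext h.2, rfl⟩, fun ⟨b, h, e⟩ => e ▸ ⟨b.2, congrArg Subtype.val h⟩⟩
end

theorem comm_mem {G : Type*} [Group G] {Z : Subgroup G} {x : ℕ → G} {m : ℕ} (hc : ∀ i < m, ∀ z ∈ Z, Commute (x i) z)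
    (h : ∀ i < m, ∀ j < m, ⁅x i, x j⁆ ∈ Z) (u : List ℕ) (hu : ∀ l ∈ u, l < m) (v : List ℕ) (hv : ∀ l ∈ v, l < m) :
    ⁅W x u, W x v⁆ ∈ Z := by
  have k : ∀ g : G, (∀ j < m, ⁅g, x j⁆ ∈ Z) → ∀ v : List ℕ, (∀ l ∈ v, l < m) → ⁅g, W x v⁆ ∈ Z := fun g hg v hv => by
    induction v with
    | nil => simp
    | cons a v ih =>
      have h1 := ih fun l hl => hv l (List.mem_cons_of_mem _ hl)
      have h2 := hv a List.mem_cons_self
      have : ⁅g, x a * W x v⁆ = ⁅g, x a⁆ * (x a * ⁅g, W x v⁆ * (x a)⁻¹) := by simp only [commutatorElement_def]; group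
      rw [W_cons, this, (hc a h2 _ h1).eq, mul_inv_cancel_right]
      exact mul_mem (hg a h2) h1
  exact k _ (fun j hj => by rw [← commutatorElement_inv]; exact inv_mem (k _ (h j hj) u hu)) v hv

/-- an extraspecial group `P` of order `p ^ 3` with an automorphism that moves every maximal subgroup. -/
theorem heis_index {G : Type*} (Ω : Type*) [Group G] [MulAction G Ω] [Finite Ω] {p : ℕ} [hp : Fact p.Prime] {P : Subgroup G}
    (hP : Nat.card P = p ^ 3) {z t : G} (hz : z ∈ P) (ho : orderOf z = p) (hc : ∀ u ∈ P, Commute u z)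
    (h1 : ∀ u ∈ P, ∀ v ∈ P, ⁅u, v⁆ ∈ zpowers z) (h2 : ∀ u ∈ P, t * u * t⁻¹ ∈ P) (h3 : z ∈ zpowers (t⁻¹ * z * t))
    (h4 : ∀ u ∈ P, u ∉ zpowers z → ¬ Commute u (t * u * t⁻¹)) {ω : Ω} (hω : z • ω ≠ ω) :
    min (p ^ 3) (2 * p ^ 2) ≤ Nat.card Ω := by
  have p1 := hp.out.one_lt
  haveI : Finite P := Nat.finite_of_card_ne_zero (by rw [hP]; positivity)
  have a1 : ∀ ω : Ω, z • ω ≠ ω → ∀ u ∈ zpowers z, u • ω = ω → u = 1 := fun ω hω u hu e => by
    by_contra h
    obtain ⟨k, hk⟩ := mem_zpowers_of_prime_card (G := zpowers z) (by rw [Nat.card_zpowers, ho]) (g := ⟨u, hu⟩)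
      (g' := ⟨z, mem_zpowers z⟩) fun e => h (congrArg Subtype.val e)
    exact hω (show z ∈ stabilizer G ω from (show u ^ k = z from congrArg Subtype.val hk) ▸
      zpow_mem (show u ∈ stabilizer G ω from e) k)
  have a2 : ∀ ω : Ω, z • ω ≠ ω → ∀ u ∈ P, ∀ v ∈ P, u • ω = ω → v • ω = ω → Commute u v := fun ω hω u hu v hv e e' =>
    commutatorElement_eq_one_iff_commute.1 (a1 ω hω _ (h1 u hu v hv)
      (show _ ∈ stabilizer G ω from mul_mem (mul_mem (mul_mem e e') (inv_mem e)) (inv_mem e')))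
  have a3 : ∀ ω : Ω, z • ω ≠ ω → p ^ 2 ≤ (orbit P ω).ncard := fun ω hω => by
    have k := (stabilizer P ω).index_mul_card
    rw [index_stabilizer, hP] at k
    suffices Nat.card (stabilizer P ω) ≤ p by
      by_contra h
      have := Nat.mul_lt_mul_of_lt_of_le (not_le.1 h) this (by omega)
      rw [k, ← pow_succ] at this; exact this.false
    rcases (stabilizer P ω).bot_or_exists_ne_one with e | ⟨y, hy, e⟩
    · rw [e, card_bot]; omega
    have b1 : stabilizer P ω < centralizer {y} := lt_of_le_of_ne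
      (fun u hu => mem_centralizer_singleton_iff.2 (Subtype.ext (a2 ω hω _ u.2 _ y.2 hu hy))) fun e =>
        hω (show (⟨z, hz⟩ : P) ∈ stabilizer P ω from e ▸ mem_centralizer_singleton_iff.2 (Subtype.ext (hc _ y.2).symm))
    have b2 : centralizer {y} < ⊤ := lt_top_iff_ne_top.2 fun e' => h4 _ y.2 (fun h => e (Subtype.ext (a1 ω hω _ h hy)))
      (show y.1 * _ = _ * y.1 from (congrArg Subtype.val (mem_centralizer_singleton_iff.1
        (show (⟨_, h2 _ y.2⟩ : P) ∈ centralizer {y} from e' ▸ mem_top _))).symm)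
    obtain ⟨i, -, c1⟩ := (Nat.dvd_prime_pow hp.out).1 (hP ▸ card_subgroup_dvd_card (stabilizer P ω))
    obtain ⟨j, -, c2⟩ := (Nat.dvd_prime_pow hp.out).1 (hP ▸ card_subgroup_dvd_card (centralizer {y}))
    have lt : ∀ {A B : Subgroup P}, A < B → Nat.card A < Nat.card B := fun h =>
      lt_of_not_ge fun e => h.ne (eq_of_le_of_card_ge h.le e)
    have c3 := lt b1
    have c4 := lt b2
    rw [card_top, hP, c2, Nat.pow_lt_pow_iff_right p1] at c4
    rw [c1, c2, Nat.pow_lt_pow_iff_right p1] at c3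
    rw [c1]; exact (Nat.pow_le_pow_right (by omega) (show i ≤ 1 by omega)).trans_eq (pow_one p)
  rw [← Set.ncard_univ]
  rcases (stabilizer P ω).bot_or_exists_ne_one with e | ⟨y, hy, e⟩
  · have k := index_stabilizer P ω
    rw [e, index_bot, hP] at k
    exact (min_le_left _ _).trans (k ▸ Set.ncard_le_ncard (Set.subset_univ _))
  have hω' : z • t • ω ≠ t • ω := fun e => hω ((zpowers_le (H := stabilizer G ω)).2 (by
    rw [mem_stabilizer_iff, mul_smul, mul_smul, e, inv_smul_smul]) h3)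
  have d : Disjoint (orbit P ω) (orbit P (t • ω)) := (orbit.eq_or_disjoint _ _).resolve_left fun e' => by
    obtain ⟨u, hu⟩ : t • ω ∈ orbit P ω := e' ▸ mem_orbit_self _
    have hu : u.1 • ω = t • ω := hu
    have hy' : y.1 • ω = ω := hy
    have f1 := a2 _ hω' (u.1 * y.1 * u.1⁻¹) (u * y * u⁻¹).2 _ (h2 _ y.2)
      (by rw [← hu, mul_smul, mul_smul, inv_smul_smul, hy']) (by rw [mul_smul, mul_smul, inv_smul_smul, hy'])
    obtain ⟨k, hk⟩ := h1 _ u.2 _ y.2
    refine h4 _ y.2 (fun h => e (Subtype.ext (a1 ω hω _ h hy))) ?_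
    have : y.1 = (z ^ k)⁻¹ * (u.1 * y.1 * u.1⁻¹) := by rw [show z ^ k = _ from hk, commutatorElement_def]; group
    nth_rewrite 1 [this]
    exact ((hc _ (h2 _ y.2)).symm.zpow_left k).inv_left.mul_left f1
  refine (min_le_right _ _).trans (le_trans ?_ (Set.ncard_le_ncard (Set.subset_univ (orbit P ω ∪ orbit P (t • ω)))))
  rw [Set.ncard_union_eq d, two_mul]
  exact Nat.add_le_add (a3 _ hω) (a3 _ hω')

end Cfsg.Agent.Known
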