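import Cfsg.Agent.Known.L32Tab
import Cfsg.Agent.Known.MatRep2
import Cfsg.Agent.S0243

/-! PSL(3,2) is isomorphic to its model (helper25): `equiv`. -/

set_option maxRecDepth 100000
set_option exponentiation.threshold 100000

namespace Cfsg.Agent.Known.L32T

open Cfsg.Agent.Comp Matrix

def As : List (List ℕ) := [[1,5,16],[16,17,5],[1,4,16]]

def Ls : List (List (List ℕ)) := [[[1,1,0],[0,1,0],[0,0,1]],[[0,1,1],[0,0,1],[1,1,0]]]

noncomputable def vt : ℕ := (nat_lit 0x15511405101)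

theorem pts : chkPts 2 3 2 3 As 2 0 7 (get2 6 vt) = true := by decide +kernel

def us : List (List ℕ) := [[3],[0,2,3,1,2,1]]

theorem mdl2 : Mdl L32P.φ 7 2 168 (fun j => W y (nthL [] us j)) (fun j => actW act (nthL [] us j)) [3,0,1] :=
  mdl.words us [[0,1,1,0,1,0,1,1,0,1],[1,1,0,1],[1,0,1,1,0,1,1,0,1,1,0,1,0,1,1,0,1],[0]] (by decide +kernel)

theorem acts0 : ∀ j < 1, chkAct 2 3 2 3 As 2 0 7 (get2 6 vt) j (actW act (nthL [] us j)) = true :=
  forall_lt_add (a := 0) (b := 1) (fun _ h => absurd h (Nat.not_lt_zero _)) (by decide +kernel)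

theorem acts : ∀ j < 2, chkAct 2 3 2 3 As 2 0 7 (get2 6 vt) j (actW act (nthL [] us j)) = true :=
  forall_lt_add (a := 1) (b := 1) acts0 (by decide +kernel)

theorem cen : Subgroup.center L32P.G = ⊥ :=
  mdl.center_eq_bot 1 [[0,2]]
    [[],[0,2,0,1,2,3,2,0,1,2],[2,3,2]] (by decide +kernel)

theorem mr : Spor.MatRep (matOf (Nat.cast : ℕ → ZMod 2) (Equiv.refl (Fin 3)) Ls) 2 3 2 3 As 2 (reindexRingEquiv (ZMod 2) (Equiv.refl (Fin 3))).toMonoidHom :=
  matRep_prime' (Equiv.refl (Fin 3)) (by decide +kernel) (by decide +kernel)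

theorem equiv {F : Type*} [Field F] [Fintype F] (hF : Fintype.card F = 2) : Nonempty (ProjectiveSpecialLinearGroup (Fin 3) F ≃* L32P.G) := by
  obtain ⟨e⟩ := exists_ringEquiv (ZMod 2) F ((ZMod.card 2).trans hF.symm)
  have h := S0243.result hF 3 (by decide)
  simp only [Fin.prod_univ_succ, Fin.prod_univ_zero] at h
  exact mdl2.equiv_quot' (mrep_SL e mr (det_of_chk mr 6 (by decide +kernel) (by decide +kernel))) pts acts cen
    (by simp at h; omega)

end Cfsg.Agent.Known.L32T
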