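import Cfsg.Agent.Known.Bridge
import Cfsg.Agent.Known.P.L32

/-! Pointwise tables and a base for `L32P.G` in degree 7 (generated certificate, helper25): letters `y`,
action `act`, `hy`, `base`, `mdl`. -/

set_option maxRecDepth 100000
set_option exponentiation.threshold 100000

namespace Cfsg.Agent.Known.L32T

open Cfsg.Agent.Comp

noncomputable def t0 : ℕ := (nat_lit 0x173888)

theorem h0 : TabOf 7 3 t0 (Spor.ev (Spor.PP L32P.nets) [0])⁻¹ :=
  tabOf_of_chk (L := 3) L32P.ok _ (by decide +kernel)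

noncomputable def t1 : ℕ := (nat_lit 0xe5c88)

theorem h1 : TabOf 7 3 t1 (Spor.ev (Spor.PP L32P.nets) [1])⁻¹ :=
  tabOf_of_chk (L := 3) L32P.ok _ (by decide +kernel)

noncomputable def t2 : ℕ := (nat_lit 0x1844cd)

theorem h2 : TabOf 7 3 t2 (Spor.ev (Spor.PP L32P.nets) [2])⁻¹ :=
  tabOf_of_chk (L := 3) L32P.ok _ (by decide +kernel)

noncomputable def t3 : ℕ := (nat_lit 0x174650)

theorem h3 : TabOf 7 3 t3 (Spor.ev (Spor.PP L32P.nets) [3])⁻¹ :=
  tabOf_of_chk (L := 3) L32P.ok _ (by decide +kernel)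

noncomputable def tabs : List ℕ := [t0, t1, t2, t3]

def wds : List (List ℕ) := [[0],[1],[2],[3]]

noncomputable scoped instance inst : MulAction L32P.G ℕ := actOf L32P.φ

scoped instance fin : Finite L32P.G := Nat.finite_of_card_ne_zero (by rw [L32P.card]; decide)

noncomputable def y (i : ℕ) : L32P.G := (Spor.ev L32P.g (nthL [0] wds i))⁻¹

noncomputable def act (i : ℕ) : ℕ → ℕ := get2 3 (nthL t0 tabs i)

theorem hy : ActBy y (PtN 7) act :=
  actBy_tabs L32P.rep (.cons h0 (.cons h0 (.cons h1 (.cons h2 (.cons h3 (.nil)))))) (by decide +kernel)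

theorem f0 : FixLe L32P.G (PtN 7) [1] 7 :=
  FixLe.nil.stepW (isCanon_PtN _) hy 1 7 [[1,2,3]] 7 ⟨_, rfl, by decide⟩ (by decide +kernel)

theorem f1 : FixLe L32P.G (PtN 7) [0,1] 42 :=
  f0.stepW (isCanon_PtN _) hy 0 6 [[0,2],[1]] 7 ⟨_, rfl, by decide⟩ (by decide +kernel)

theorem f2 : FixLe L32P.G (PtN 7) [3,0,1] 168 :=
  f1.stepW (isCanon_PtN _) hy 3 4 [[1],[0]] 7 ⟨_, rfl, by decide⟩ (by decide +kernel)

theorem base : IsBase L32P.G (PtN 7) [3,0,1] := f2.isBase L32P.card le_rfl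

theorem mdl : Mdl L32P.φ 7 4 168 y act [3,0,1] :=
  mdl_of_tabs L32P.rep hy base (by decide) L32P.card (by decide)

end Cfsg.Agent.Known.L32T
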