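import Cfsg.Agent.Known.O5A
import Cfsg.Agent.Pres.St

/-! Elements of order `5` of ²E₆(2) over the algebraic closure (helper25): `O5.conj_tor`, `O5.cent`, `O5.dec`. -/

set_option autoImplicit false
set_option maxRecDepth 100000

namespace Cfsg.Agent.Known.O5

open Cfsg.Lie Cfsg.Agent.Chev Cfsg.Agent.Chev.Sys Cfsg.Agent.Pres Subgroup
open scoped MatrixGroups

variable {L : Type*} [Field L] {ζ : Lˣ}

local notation "X" => stS chevE6 L
local notation "m" => stS_mult chevE6 L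
local notation "cv" => stCover chevE6 L

def s (i : ℕ) : Sm chevE6 := ⟨i % 6, Nat.mod_lt _ (by decide)⟩
/-- the torus parameter of the standard element of order `5`. -/
def a0 (ζ : Lˣ) : Sm chevE6 → Lˣ := fun i => ζ ^ gt (1, 0, 0, 0, 0, 2) i
def f0 (r : Rt chevE6) : ℤ := car (s 0) r + 2 * car (s 5) r
/-- the roots of the centraliser. -/
def T : Set (Rt chevE6) := {r | car (s 0) r = 0 ∧ car (s 5) r = 0}
instance instDecT : DecidablePred (· ∈ T) := fun r => inferInstanceAs (Decidable (_ ∧ _))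

theorem prod6 {M : Type*} [CommMonoid M] (f : Sm chevE6 → M) : ∏ i, f i = f (s 0) * f (s 1) * f (s 2) * f (s 3) * f (s 4) * f (s 5) :=
  Fin.prod_univ_six (f : Fin 6 → M)

theorem chi_a0 (r : Rt chevE6) : chi (a0 ζ) r = ζ ^ f0 r := by
  rw [chi, prod6]; simp [a0, gt, s, f0, zpow_add, zpow_mul]

theorem zpow_eq (h : orderOf ζ = 5) {a b : ℤ} : ζ ^ a = ζ ^ b ↔ a % 5 = b % 5 := by
  rw [zpow_eq_zpow_iff_modEq, h]; rfl

theorem ker_a0 (h : orderOf ζ = 5) : Ker (a0 ζ) = T := Set.ext fun r => by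
  rw [Ker, Set.mem_ofPred_eq, chi_a0, ← zpow_zero ζ, zpow_eq h]; revert r; decide +kernel

theorem zker_cube {a : Fin 6 → Lˣ} (h : a ∈ zker chevE6 L) : a ^ 3 = 1 := by
  obtain ⟨z, h1, rfl⟩ := mem_zkerE6.1 h
  have : (z ^ 2) ^ 3 = 1 := by rw [← pow_mul, mul_comm, pow_mul, h1, one_pow]
  funext i; fin_cases i <;> simp [h1, this]

theorem eq_of_chi {a b : Sm chevE6 → Lˣ} (ha : a ^ 5 = 1) (hb : b ^ 5 = 1) (h : ∀ j, chi a (sm j) = chi b (sm j)) : a = b := by
  have h3 : (a * b⁻¹) ^ 3 = 1 := zker_cube fun j => by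
    show chiH (sm j) (a * b⁻¹) = 1
    rw [map_mul, map_inv]; exact mul_inv_eq_one.2 (h j)
  exact mul_inv_eq_one.1 (by simpa using pow_gcd_eq_one.2 ⟨h3, show (a * b⁻¹) ^ 5 = 1 by rw [mul_pow, inv_pow, ha, hb]; simp⟩)

theorem a0_pow (h : orderOf ζ = 5) : a0 ζ ^ 5 = 1 := funext fun i => by
  rw [Pi.pow_apply, a0, ← pow_mul, mul_comm, pow_mul, ← h, pow_orderOf_eq_one, one_pow, Pi.one_apply]

theorem gt_act (j : ℕ) (c : V6) {i : ℕ} (hi : i < 6) : gt (act j c) i = (gt c i + ca j i * gt c j) % 5 := by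
  interval_cases i <;> rfl

theorem red_ok (h : orderOf ζ = 5) (n : ℕ) : ∀ (c : V6) (a : Sm chevE6 → Lˣ), red n c = true → a ^ 5 = 1 →
    (∀ j, chi a (sm j) = ζ ^ gt c j) → IsConj ((m).tor a) ((m).tor (a0 ζ)) := by
  induction n with
  | zero => simp [red]
  | succ n ih =>
    intro c a e ha hc
    rw [red, Bool.or_eq_true, Comp.force_eq, beq_iff_eq] at e
    rcases e with rfl | e
    · rw [eq_of_chi ha (a0_pow h) fun j => by
        rw [hc, chi_a0, ← zpow_natCast, zpow_eq h]; revert j; decide +kernel]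
    obtain ⟨j, hj⟩ : ∃ j : Sm chevE6, nx c = j := ⟨⟨nx c, Nat.mod_lt _ (by decide)⟩, rfl⟩
    rw [hj] at e
    refine (isConj_iff.2 ⟨_, (m).conj_wt ((X).mon_n (sm j) one_ne_zero) a⟩).trans (ih _ _ e (by rw [← map_pow, ha, map_one]) fun i => ?_)
    have := chi_wt (rW (sm j)) a (rW (sm j) • sm i)
    rw [← mul_smul, rW_mul_self, one_smul, rW_smul, Comb.chi_eq (a := a) (k := refl (sm j) (sm i)) (i := 1) (j := -A (sm j) (sm i)) (r := sm i) (s := sm j)
      (by rw [rtv_refl]; simp [sub_eq_add_neg]), hc, hc, zpow_one, ← zpow_natCast, ← zpow_natCast, ← zpow_mul, ← zpow_add] at this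
    rw [this, ← zpow_natCast, zpow_eq h, gt_act j c i.2,
      show -A (sm j) (sm i) = ca j i - 5 * if j = i then 1 else 0 from
        A_sm j _ ▸ (by decide +kernel : ∀ j i : Sm chevE6, -car j (sm i) = ca j i - 5 * if j = i then 1 else 0) j i]
    push_cast
    rw [Int.emod_emod_of_dvd _ dvd_rfl, mul_sub, ← add_sub_assoc, mul_left_comm, Int.sub_mul_emod_self_left, mul_comm]

theorem RL_eq : RL = (List.finRange 72).map fun r : Rt chevE6 => tp fun i => (rtv r (s i) % 5).toNat := by decide +kernel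

theorem cnt_eq (c : V6) : cnt c = ∑ r : Rt chevE6, wt5 (dot (tp fun i => (rtv r (s i) % 5).toNat) c) := by
  have : ∀ l : List V6, List.rec 0 (fun v _ ih => Nat.add (wt5 (dot v c)) ih) l = (l.map fun v => wt5 (dot v c)).sum := fun l => by
    induction l with
    | nil => rfl
    | cons v l ih => rw [List.map_cons, List.sum_cons, ← ih]; rfl
  rw [cnt, this, RL_eq]
  exact (congrArg List.sum List.map_map).trans (Fin.sum_univ_def (n := 72) _).symm

theorem conj_tor (h : orderOf ζ = 5) {a : Sm chevE6 → Lˣ} (ha : a ^ 5 = 1) (h1 : a ≠ 1) (β : Rt chevE6 ≃ Rt chevE6)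
    (hβ : ∀ r, chi a (β r) = chi a r ^ 2) : IsConj ((m).tor a) ((m).tor (a0 ζ)) := by
  have hζ : IsPrimitiveRoot ζ 5 := h ▸ IsPrimitiveRoot.orderOf ζ
  choose e he1 he using fun j => hζ.eq_pow_of_mem_rootsOfUnity (show chi a (sm j) ∈ rootsOfUnity 5 L from chi_pow_eq_one ha _)
  let c := tp fun i => e (s i)
  have hc : ∀ j, chi a (sm j) = ζ ^ gt c j := fun j => by rw [← he]; fin_cases j <;> rfl
  let d := fun r : Rt chevE6 => dot (tp fun i => (rtv r (s i) % 5).toNat) c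
  have hd : ∀ r, chi a r = ζ ^ (d r : ℤ) := fun r => by
    rw [chi_eq_prod, prod6]
    simp only [← he, ← zpow_natCast, ← zpow_mul, ← zpow_add, zpow_eq h, d, dot, tp, c]
    simp only [show ∀ a b, Nat.mod a b = a % b from fun _ _ => rfl, Nat.add_eq, Nat.mul_eq]
    push_cast
    simp only [Int.toNat_of_nonneg (Int.emod_nonneg _ (by decide : (5 : ℤ) ≠ 0)), Int.emod_emod_of_dvd _ dvd_rfl]
    refine Int.ModEq.trans ?_ (Int.ModEq.symm (((((Int.mod_modEq _ _).mul_right _).add ((Int.mod_modEq _ _).mul_right _)).add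
      (((Int.mod_modEq _ _).mul_right _).add ((Int.mod_modEq _ _).mul_right _))).add (((Int.mod_modEq _ _).mul_right _).add
        ((Int.mod_modEq _ _).mul_right _))))
    exact congrArg (· % 5) (by ring)
  have k : cnt c = 72 := by
    have k1 : ∀ r, wt5 (d r) + (if d r = 2 then 1 else 0) = 1 + if d (β r) = 2 then 1 else 0 := fun r => by
      have := hβ r
      rw [hd, hd, ← zpow_natCast, ← zpow_mul, zpow_eq h] at this
      have b1 : d r < 5 := Nat.mod_lt _ (by decide)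
      have b2 : d (β r) < 5 := Nat.mod_lt _ (by decide)
      generalize d r = x, d (β r) = y at *
      interval_cases x <;> interval_cases y <;> simp_all [wt5]
    have := Finset.sum_congr rfl fun r (_ : r ∈ Finset.univ) => k1 r
    rw [Finset.sum_add_distrib, Finset.sum_add_distrib, β.sum_comp (fun r => if d r = 2 then 1 else 0), add_left_inj] at this
    rw [cnt_eq, this]; simp; rfl
  have k2 : chk (e (s 0)) = true := by
    have := he1 (s 0)
    interval_cases e (s 0)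
    exacts [chk0, chk1, chk2, chk3, chk4]
  simp only [chk, Comp.allLt_iff] at k2
  have k3 := k2 _ (he1 (s 1)) _ (he1 (s 2)) _ (he1 (s 3)) _ (he1 (s 4)) _ (he1 (s 5))
  rw [show cnt (e (s 0), e (s 1), e (s 2), e (s 3), e (s 4), e (s 5)) = 72 from k] at k3
  rcases Bool.or_eq_true _ _ ▸ k3 with k4 | k4
  · refine absurd (eq_of_chi ha (one_pow _) fun j => ?_) h1
    rw [hc, show c = _ from beq_iff_eq.1 k4]
    fin_cases j <;> simp [gt, chi]
  · exact red_ok h _ _ a k4 ha hc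

variable (L) in
/-- the rational points of the derived group of the centraliser. -/
def Q0 : Subgroup (chevE6.SteinbergGroup L) := closure ((fun r => (X).x r 1) '' T)

theorem Q0_le : Q0 L ≤ (X).U T := (closure_le _).2 (by rintro _ ⟨r, hr, rfl⟩; exact (X).x_mem_U hr _)

variable (two : (2 : L) = 0)
include two

theorem neg (t : L) : -t = t := by grind

theorem n_conj1 (r k : Rt chevE6) (t : L) : (X).n r 1 * (X).x k t * ((X).n r 1)⁻¹ = (X).x (refl r k) t := by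
  rw [(X).n_conj r k one_ne_zero, show (eta r k : L) = 1 by rcases eta_eq r k with e | e <;> simp [e, neg two]]; simp

theorem exists_mon1 (w : WG chevE6) : ∃ n ∈ (X).N, ∀ r t, n * (X).x r t * n⁻¹ = (X).x (w • r) t := by
  induction w using W_induction with
  | h1 => exact ⟨1, one_mem _, by simp⟩
  | h2 i w ih =>
    obtain ⟨n, h1, h2⟩ := ih
    exact ⟨_, mul_mem ((X).n_mem_N (sm i) one_ne_zero) h1, fun r t => by rw [mul_smul, sr_smul, ← n_conj1 two, ← h2]; group⟩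

/-- Bruhat decomposition of the centraliser. -/
theorem cent (h : orderOf ζ = 5) {y : chevE6.SteinbergGroup L} (hy : y ∈ centralizer {(m).tor (a0 ζ)}) :
    ∃ w, ∃ u ∈ (X).U {r | Pos r ∧ r ∈ T}, ∃ z ∈ (X).H, ∃ n ∈ Q0 L, (X).Mon n w ∧
      ∃ u' ∈ (X).U {r | (Pos r ∧ ¬ Pos (w • r)) ∧ r ∈ T}, y = u * z * n * u' := by
  obtain ⟨w, hw⟩ := exists_cell (stS_U_univ chevE6 L ▸ mem_top y)
  obtain ⟨-, u, hu, z, hz, h3, u', hu', rfl⟩ := (((m).cj (a0 ζ)).stable cv).exists_canon cv ((m).cj_fix _ ▸ hy) hw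
  have h5 := (cv).mem_Wst m h3 hz.2
  have hT : ∀ r, chi (a0 ζ) r = 1 ↔ r ∈ T := fun r => ker_a0 h ▸ Iff.rfl
  have k : ∀ i, i = s 0 ∨ i = s 5 → ∀ r, car i (w • r) = car i r := fun i hi r => by
    rw [← A_sm, ← A_sm, ← A_smul w (sm i) r, (by decide +kernel : ∀ i, i = s 0 ∨ i = s 5 → ∀ r, f0 r % 5 = f0 (sm i) % 5 →
      (∀ k ∈ T, A r k = 0) → r = sm i) i hi (w • sm i) (by rw [← zpow_eq h, ← chi_a0, ← chi_a0, h5]) fun k hk => by
        have := (hT _).1 ((inv_mem h5 k).trans ((hT k).2 hk))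
        rw [← smul_inv_smul w k, A_smul, A_sm]
        rcases hi with rfl | rfl
        exacts [this.1, this.2]]
  have hφ : ∀ r : Rt chevE6, (carL (s 0) + 5 • carL (s 5) : Fn chevE6) (rtv r) = car (s 0) r + 5 * car (s 5) r := fun r => by
    simp [carL_rtv]
  obtain ⟨v, hv⟩ := exists_conj_WJ (φ := carL (s 0) + 5 • carL (s 5)) (w := w) fun r => by
    rw [hφ, hφ, k _ (.inl rfl), k _ (.inr rfl)]
  obtain ⟨p, p1, p2⟩ := exists_mon1 two v
  have p3 : (X).Mon p v := ⟨1, by simp, by simpa using p2⟩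
  obtain ⟨n, n1, n2, n3⟩ := (X).exists_mem_N_of_mem hv
  have n4 : (X).Mon (p * n * p⁻¹) w := by simpa [mul_assoc] using (p3.mul n2).mul p3.inv
  refine ⟨w, u, (X).U_mono (fun r hr => And.intro hr.1 ((hT r).1 hr.2)) ((cv).mem_U_of_conj m nilp_Pos hu.1 hu.2), _,
    (cv).mul_inv_mem_H hz.1 (mul_mem (mul_mem p1 n1) (inv_mem p1)) h3 n4, p * n * p⁻¹,
    n3 ((Q0 L).comap (MulAut.conj p).toMonoidHom) fun j hj => ?_, n4, u',
    (X).U_mono (fun r hr => And.intro hr.1 ((hT r).1 hr.2)) ((cv).mem_U_of_conj m (nilp_Inv w) hu'.1 hu'.2), by group⟩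
  have b1 : v • sm j ∈ T := (by decide +kernel : ∀ r, car (s 0) r + 5 * car (s 5) r = 0 → r ∈ T) _ (hφ _ ▸ hj)
  have b2 : ng (v • sm j) ∈ T := ker_a0 h ▸ ng_mem_Ker ((hT _).2 b1)
  rw [mem_comap, Sys.n, neg two, inv_one, map_mul, map_mul]
  simp only [MulEquiv.coe_toMonoidHom, MulAut.conj_apply, p2, smul_ng]
  exact mul_mem (mul_mem (subset_closure ⟨_, b1, rfl⟩) (subset_closure ⟨_, b2, rfl⟩)) (subset_closure ⟨_, b1, rfl⟩)

omit two in
/-- the twisted Frobenius map. -/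
noncomputable def τ (φ : L →+* L) : chevE6.SteinbergGroup L →* chevE6.SteinbergGroup L :=
  (MulAut.conj ((X).n (sm (s 0)) 1)).toMonoidHom.comp (αE6 φ).σ

omit two in
theorem τ_apply (φ : L →+* L) (y) : τ φ y = (X).n (sm (s 0)) 1 * (αE6 φ).σ y * ((X).n (sm (s 0)) 1)⁻¹ := by simp [τ]

variable {φ : L →+* L} (hφ : ∀ t, φ t = t ^ 2)
include hφ

theorem σ_x (r : Rt chevE6) (t : L) : (αE6 φ).σ ((X).x r t) = (X).x (symE6.ρ r) (t ^ 2) := by
  rw [← xN_val, ← xN_val, twE6_ok.autSt_xN symE6 symE6_ρ Nat.cast_zero φ r.2, show (twE6.ε r : L) = 1 by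
    rcases (by decide +kernel : ∀ r < 72, twE6.ε r = 1 ∨ twE6.ε r = -1) r r.2 with e | e <;> simp [e, neg two], one_mul, hφ]
  exact congrArg _ (pow_one _)

theorem τ_x {r : Rt chevE6} (hr : r ∈ T) (t : L) : τ φ ((X).x r t) = (X).x r (t ^ 2) := by
  rw [τ_apply, σ_x two hφ, n_conj1 two, show symE6.ρ r = r from Fin.ext ((by decide +kernel : ∀ r ∈ T, twE6.ι r = r) r hr),
    show refl (sm (s 0)) r = r from rtv_injective (by rw [rtv_refl, A_sm, hr.1]; simp)]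

theorem τ_Q0 {y : chevE6.SteinbergGroup L} (hy : y ∈ Q0 L) : τ φ y = y :=
  (closure_le ((τ φ).eqLocus (MonoidHom.id _))).2 (by rintro _ ⟨r, hr, rfl⟩; exact (τ_x two hφ hr 1).trans (by simp)) hy

theorem τ_U {S : Set (Rt chevE6)} (hS : S ⊆ T) {y : chevE6.SteinbergGroup L} (hy : y ∈ (X).U S) : τ φ y ∈ (X).U S :=
  (U_le.2 fun r hr t => by rw [mem_comap, τ_x two hφ (hS hr)]; exact (X).x_mem_U hr _ : (X).U S ≤ ((X).U S).comap (τ φ)) hy

omit two in
theorem σ_tor (a : Sm chevE6 → Lˣ) : (αE6 φ).σ ((m).tor a) = (m).tor fun j => a (symE6.π.symm j) ^ 2 :=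
  (twE6_ok.autSt_tor symE6 symE6_ρ Nat.cast_zero φ a).trans (congrArg _ (funext fun j => Units.ext
    ((congrArg Units.val (pow_one _)).trans (hφ _))))

omit two in
theorem τ_tor (a : Sm chevE6 → Lˣ) : τ φ ((m).tor a) = (m).tor fun i =>
    [(a (s 5) ^ 2)⁻¹ * a (s 4) ^ 2, a (s 1) ^ 2, a (s 4) ^ 2, a (s 3) ^ 2, a (s 2) ^ 2, a (s 0) ^ 2].getD i 1 := by
  rw [τ_apply, σ_tor hφ, (m).conj_wt ((X).mon_n _ one_ne_zero)]
  congr 1
  funext j
  have e1 : ∀ i j : Sm chevE6, cov (rW (sm (s 0)) • sm i) j =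
      (if i = j then 1 else 0) + if j = s 0 then (if i = s 0 then -2 else if i = s 2 then 1 else 0) else 0 := fun i j => by
    rw [rW_smul, cov, refl_sm_val]; revert i j; decide +kernel
  have e2 : ∀ i, symE6.π.symm i = s ([5, 1, 4, 3, 2, 0].getD i 0) := fun i => by
    rw [Equiv.symm_apply_eq]; exact Fin.ext (by revert i; decide +kernel)
  simp only [wt, MonoidHom.coe_mk, OneHom.coe_mk, e1, e2, prod6]
  fin_cases j <;> simp +decide [s] <;> rfl

theorem mem_Q0 {u : chevE6.SteinbergGroup L} (hu : u ∈ (X).U {r | Pos r ∧ r ∈ T}) (e : τ φ u = u) : u ∈ Q0 L := by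
  have hN : Nilp (htF _) {r | Pos r ∧ r ∈ T} := ⟨fun r hr => nilp_Pos.pos r hr.1, fun a ha b hb k hk =>
    ⟨nilp_Pos.closed a ha.1 b hb.1 k hk, by
      obtain ⟨i, j, -, -, e⟩ := hk
      constructor <;> simp [car_of_rtv e, ha.2.1, ha.2.2, hb.2.1, hb.2.2]⟩⟩
  have hE : Enum {r | Pos r ∧ r ∈ T} [39, 46, 47, 69, 70, 71] := by decide +kernel
  obtain ⟨t, rfl⟩ := exists_gword hN hE hu
  have k : ∀ l : List ℕ, (∀ k ∈ l, ∃ r ∈ T, (r : ℕ) = k) → τ φ (gword (X).x (l.map fun k => (k, t k))) =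
      gword (X).x (l.map fun k => (k, t k ^ 2)) ∧ ((∀ k ∈ l, t k ^ 2 = t k) → gword (X).x (l.map fun k => (k, t k)) ∈ Q0 L) :=
    fun l hl => by
    induction l with
    | nil => simp [one_mem]
    | cons a l ih =>
      obtain ⟨r, hr, rfl⟩ := hl a (.head _)
      obtain ⟨b1, b2⟩ := ih fun k hk => hl k (.tail _ hk)
      simp only [List.map_cons, gword_cons, map_mul, τ_x two hφ hr, b1, true_and, List.forall_mem_cons]
      refine fun c => mul_mem ?_ (b2 c.2)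
      obtain e | e : t r = 0 ∨ t r = 1 := by have := c.1; grind
      · simp [e, one_mem]
      · exact e ▸ subset_closure ⟨r, hr, rfl⟩
  obtain ⟨b1, b2⟩ := k [39, 46, 47, 69, 70, 71] (by decide +kernel)
  rw [b1, (cv).gword_inj hN hE subset_rfl (by simp) (by simp), List.map_inj_left] at e
  exact b2 fun k hk => by simpa using e k hk

theorem dec (h : orderOf ζ = 5) {y : chevE6.SteinbergGroup L} (hy : y ∈ centralizer {(m).tor (a0 ζ)}) (e : τ φ y = y) :
    ∃ i : ℕ, ∃ c ∈ center (chevE6.SteinbergGroup L), ∃ l ∈ Q0 L, y = (m).tor (a0 ζ) ^ i * l * c := by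
  obtain ⟨w, u, hu, z, hz, n, hn, hw, u', hu', rfl⟩ := cent two h hy
  obtain ⟨a, rfl⟩ := (m).exists_tor hz
  have a1 := (X).U_mono (T := {r | Pos r}) (fun _ h => h.1) hu
  have a2 := (X).U_mono (T := {r | Pos r}) (fun _ h => h.1) (τ_U two hφ (fun _ h => h.2) hu)
  rw [map_mul, map_mul, map_mul, τ_Q0 two hφ hn, τ_tor hφ] at e
  obtain ⟨e1, e2⟩ := (cv).canon_unique hw (mul_mem ((X).UP_le_B a2) ((X).H_le_B ((m).tor_mem_H _)))
    (mul_mem ((X).UP_le_B a1) ((X).H_le_B hz)) ((X).U_mono (fun _ h => h.1) (τ_U two hφ (fun _ h => h.2) hu'))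
    ((X).U_mono (fun _ h => h.1) hu') e
  obtain ⟨e3, e4⟩ := (cv).eq_of_UP_H a2 a1 ((m).tor_mem_H _) hz e1
  have e5 := congrFun (tor_injectiveE6 L e4)
  have b0 : (a (s 5) ^ 2)⁻¹ * a (s 4) ^ 2 = a (s 0) := e5 (s 0)
  have b1 : a (s 1) ^ 2 = a (s 1) := e5 (s 1)
  have b2 : a (s 4) ^ 2 = a (s 2) := e5 (s 2)
  have b3 : a (s 3) ^ 2 = a (s 3) := e5 (s 3)
  have b4 : a (s 2) ^ 2 = a (s 4) := e5 (s 4)
  have b5 : a (s 0) ^ 2 = a (s 5) := e5 (s 5)
  have c1 : a (s 4) ^ 3 = 1 := by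
    rw [← b2, ← pow_mul, pow_succ _ 3] at b4; simpa using b4
  obtain ⟨i, -, hi⟩ := (show IsPrimitiveRoot ζ 5 from h ▸ IsPrimitiveRoot.orderOf ζ).eq_pow_of_mem_rootsOfUnity
    (show a (s 0) * (a (s 4))⁻¹ ∈ rootsOfUnity 5 L by
      rw [← b5, inv_mul_eq_iff_eq_mul, ← pow_mul, ← pow_succ] at b0
      rw [mem_rootsOfUnity, mul_pow, ← b0, inv_pow, pow_add _ 3 2, c1]; simp)
  let b : Sm chevE6 → Lˣ := (![a (s 4), 1, a (s 4) ^ 2, 1, a (s 4), a (s 4) ^ 2] : Fin 6 → Lˣ)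
  have c2 : a = a0 ζ ^ i * b := by
    funext j
    show _ = (ζ ^ gt _ j) ^ i * b j
    obtain ⟨j, rfl⟩ : ∃ k : Fin 6, j = s k := ⟨j, Fin.ext (Nat.mod_eq_of_lt j.2).symm⟩
    fin_cases j
    · show a (s 0) = (ζ ^ 1) ^ i * a (s 4)
      simp [hi]
    · show a (s 1) = (ζ ^ 0) ^ i * 1
      simpa [pow_two] using b1
    · show a (s 2) = (ζ ^ 0) ^ i * a (s 4) ^ 2
      simp [b2]
    · show a (s 3) = (ζ ^ 0) ^ i * 1
      simpa [pow_two] using b3
    · show a (s 4) = (ζ ^ 0) ^ i * a (s 4)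
      simp
    · show a (s 5) = (ζ ^ 2) ^ i * a (s 4) ^ 2
      rw [← b5, ← pow_mul, mul_comm 2 i, pow_mul, hi, ← mul_pow, inv_mul_cancel_right]
  have c3 := ((cv).mem_center_iff (stS_U_univ _ _)).2 (((m).π_tor_eq_one cv (a := b)).2 (mem_zkerE6.2 ⟨_, c1, rfl⟩))
  have c4 := mem_Q0 two hφ hu e3
  refine ⟨i, _, c3, u * n * u', mul_mem (mul_mem c4 hn) (mem_Q0 two hφ ((X).U_mono (fun _ h => And.intro h.1.1 h.2) hu') e2), ?_⟩
  have c5 : Commute u ((m).tor (a0 ζ)) := mem_centralizer_singleton_iff.1 ((m).cj_fix _ ▸ (m).U_Ker_le _ (ker_a0 h ▸ Q0_le c4))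
  conv_lhs => rw [c2, map_mul, map_pow, ← mul_assoc, (c5.pow_right i).eq]
  simp only [mul_assoc, mem_center_iff.1 c3]

end Cfsg.Agent.Known.O5
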