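import Cfsg.Agent.Known.O5B
import Cfsg.Agent.Gen.GL42

/-! Elements of order `5` of ²E₆(2) (helper25): `O5.exists_A8`, `O5.conj_fix`, `O5.cent_equiv`. -/

set_option autoImplicit false
set_option maxRecDepth 100000

namespace Cfsg.Agent.Known.O5

open Cfsg.Lie Cfsg.Agent.Chev Cfsg.Agent.Chev.Sys Cfsg.Agent.Pres Subgroup
open scoped MatrixGroups

theorem cent_equiv {Γ G A : Type*} [Group Γ] [Group G] [Group A] {p : Γ →* G} (hs : Function.Surjective p)
    (hp : ∀ y, p y = 1 → y ∈ center Γ ∧ y ^ 3 = 1) {s : Γ} (h5 : orderOf s = 5) {ψ : A →* Γ} (hψ : Function.Injective ψ)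
    (hA : center A = ⊥) (hc : ∀ a, Commute s (ψ a)) (hd : ∀ y, Commute y s → ∃ (i : ℕ) (a : A) (c : Γ), p c = 1 ∧ y = s ^ i * ψ a * c) :
    Nonempty (centralizer {p s} ≃* Multiplicative (ZMod 5) × A) := by
  have := Fact.mk Nat.prime_five
  let e : Multiplicative (ZMod 5) ≃* zpowers s := mulEquivOfPrimeCardEq (p := 5) (by simp) (by rw [Nat.card_zpowers, h5])
  have k : ∀ (u : zpowers s) a, Commute (u : Γ) (ψ a) := by rintro ⟨_, i, rfl⟩ a; exact (hc a).zpow_left i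
  have k1 : ∀ z : Γ, z ^ 3 = 1 → z ^ 5 = 1 → z = 1 := fun z a b => by simpa using pow_gcd_eq_one.2 ⟨a, b⟩
  let f := p.comp (((zpowers s).subtype.comp e.toMonoidHom).noncommCoprod ψ fun u => k (e u))
  have hf : ∀ u a, f (u, a) = p (e u * ψ a) := fun _ _ => rfl
  have h1 : Function.Injective f := (injective_iff_map_eq_one _).2 fun ⟨u, a⟩ h => by
    obtain ⟨b1, b2⟩ := hp (e u * ψ a) h
    obtain rfl : a = 1 := mem_bot.1 (hA ▸ mem_center_iff.2 fun b => hψ (by
      have := mem_center_iff.1 b1 (ψ b)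
      rwa [← mul_assoc, ← (k _ b).eq, mul_assoc, mul_assoc, mul_right_inj, ← map_mul, ← map_mul] at this))
    have : e u = 1 := Subtype.ext (k1 _ (by simpa using b2) (by
      have := pow_card_eq_one' (x := e u)
      rw [Nat.card_zpowers, h5] at this
      exact congrArg Subtype.val this))
    simpa using this
  have h2 : f.range = centralizer {p s} := by
    refine le_antisymm ?_ fun x hx => ?_
    · rintro _ ⟨⟨u, a⟩, rfl⟩
      obtain ⟨i, hi⟩ := (e u).2
      exact mem_centralizer_singleton_iff.2 ((Commute.mul_left (show Commute (e u : Γ) s from hi ▸ Commute.zpow_self s i) (hc a).symm).map p)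
    · obtain ⟨y, rfl⟩ := hs x
      obtain ⟨b1, b2⟩ := hp (y * s * y⁻¹ * s⁻¹) (by simp [mem_centralizer_singleton_iff.1 hx])
      have b3 := Commute.mul_pow (mem_center_iff.1 b1 s).symm 5
      rw [inv_mul_cancel_right, conj_pow, ← h5, pow_orderOf_eq_one, h5] at b3
      have b4 := k1 _ b2 (by simpa using b3.symm)
      rw [mul_inv_eq_one, mul_inv_eq_iff_eq_mul] at b4
      obtain ⟨i, a, c, c1, rfl⟩ := hd y b4
      exact ⟨(e.symm ⟨_, pow_mem (mem_zpowers s) i⟩, a), by simp [hf, c1]⟩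
  exact ⟨((MonoidHom.ofInjective h1).trans (MulEquiv.subgroupCongr h2)).symm⟩

variable {L : Type*} [Field L] {ζ : Lˣ}

local notation "X" => stS chevE6 L
local notation "m" => stS_mult chevE6 L
local notation "cv" => stCover chevE6 L

theorem con_conj {C C' : Subgroup (chevE6.SteinbergGroup L)} {x y} (h : ∀ z ∈ C, x * z * x⁻¹ ∈ C') (hy : y ∈ (X).con C) :
    x * y * x⁻¹ ∈ (X).con C' := by
  have k : ∀ x, (fun _ => x) ∈ (X).Fam := fun x => U_induction (P := fun x => (fun _ => x) ∈ (X).Fam) (one_mem _)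
    (fun r _ t y _ ih => mul_mem ih ((X).x_mem_Fam r (algebraMap_mem _ t))) (stS_U_univ chevE6 L ▸ mem_top x)
  refine (closure_le (((X).con C').comap (MulAut.conj x).toMonoidHom)).2 ?_ hy
  rintro _ ⟨f, a, b, c, t, rfl⟩
  exact subset_closure ⟨fun t => x * f t * x⁻¹, mul_mem (mul_mem (k x) a) (k x⁻¹), by simp [b], fun t => h _ (c t), t, rfl⟩

def ρ (i j : Fin 4) : ℕ := ![![0, 46, 47, 71], ![25, 0, 39, 70], ![24, 32, 0, 69], ![0, 1, 2, 0]] i j

theorem sl_surj {n : Type*} [Fintype n] [DecidableEq n] :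
    Function.Surjective (Matrix.SpecialLinearGroup.toGL (n := n) (R := ZMod 2)) := fun g =>
  ⟨⟨g, (by decide : ∀ a : ZMod 2, a ≠ 0 → a = 1) _ (Matrix.isUnits_det_units g).ne_zero⟩, Units.ext rfl⟩

theorem sl4_equiv : Nonempty (SL(4, ZMod 2) ≃* alternatingGroup (Fin 8)) :=
  Gen.gl4_equiv.map (MulEquiv.ofBijective _ ⟨Matrix.SpecialLinearGroup.toGL_injective, sl_surj⟩).trans

variable [CharP L 2]

theorem stRel : StRel fun i j (a : L) => (X).xN (ρ i j) a := by
  have two : ((2 : ℕ) : L) = 0 := CharP.cast_eq_zero L 2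
  have c : ∀ i j k l, i ≠ j → k ≠ l → i ≠ l → j ≠ k → ¬ (i = k ∧ j = l) → ∀ a b, Commute ((X).xN (ρ i j) a) ((X).xN (ρ k l) b) :=
    fun i j k l a1 a2 a3 a4 a5 a b => xN_commute _ two ((by decide +kernel : ∀ i j k l, i ≠ j → k ≠ l → i ≠ l → j ≠ k →
      ¬ (i = k ∧ j = l) → CommIs chevE6 2 (ρ k l) (ρ i j) []) i j k l a1 a2 a3 a4 a5) _ _
  refine ⟨fun i j _ a b => (xN_add _ _ _ _).symm, fun i j k a b d _ _ => c _ _ _ _ a b b a.symm (d ·.2) _ _,
    fun i j k a b d _ _ => c _ _ _ _ d b d b.symm (a ·.1.symm) _ _, fun i j k l a b d e _ f _ _ => c _ _ _ _ a f d e (b ·.1) _ _,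
    fun i j k a b d t u => ?_⟩
  rw [StC, xN_comm _ two ((by decide +kernel : ∀ i j k, i ≠ j → i ≠ k → j ≠ k →
    CommIs chevE6 2 (ρ j k) (ρ i j) [(ρ i k, 1, 1, 1)]) i j k a b d), mul_assoc _ _ (gword _ _), mul_assoc (xN _ _ _) _ _⁻¹,
    show gword (X).x (evT (-u) t [(ρ i k, 1, 1, 1)]) = (X).xN (ρ i k) (t * u) by simp [evT, gword_cons', neg two, mul_comm],
    (c _ _ _ _ a b b a.symm (d ·.2) _ _).mul_inv_cancel, (c _ _ _ _ d b d b.symm (a ·.1.symm) _ _).mul_inv_cancel]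

theorem exists_A8 : ∃ ψ : alternatingGroup (Fin 8) →* chevE6.SteinbergGroup L, Function.Injective ψ ∧ ψ.range = Q0 L := by
  let ι := ZMod.castHom (dvd_refl 2) L
  have S := stRel (L := L)
  obtain ⟨ψ, hψ⟩ := StRel.exists_hom (n := 4) (by decide) (show StRel fun i j a => (X).xN (ρ i j) (ι a) from
    ⟨fun i j h a b => by rw [map_add]; exact S.add i j h _ _, fun i j k a b d _ _ => S.row i j k a b d _ _,
      fun i j k a b d _ _ => S.col i j k a b d _ _, fun i j k l a b c d e f _ _ => S.dis i j k l a b c d e f _ _,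
      fun i j k a b d t u => (S.com i j k a b d _ _).trans (by simp only [map_mul])⟩)
  obtain ⟨e'⟩ := sl4_equiv
  haveI : IsSimpleGroup (alternatingGroup (Fin 8)) := alternatingGroup.isSimpleGroup (by simp)
  refine ⟨ψ.comp e'.symm.toMonoidHom, (MonoidHom.ker_eq_bot_iff _).1 ((MonoidHom.normal_ker _).eq_bot_or_eq_top.resolve_right
    fun h => ?_), ?_⟩
  · have := h.ge (mem_top (e' (el 0 1 1)))
    simp only [MonoidHom.mem_ker, MonoidHom.comp_apply, MulEquiv.coe_toMonoidHom, MulEquiv.symm_apply_apply,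
      hψ 0 1 (by decide), map_one] at this
    exact one_ne_zero ((cv).x_eq_one ((xN_val _ ⟨ρ 0 1, by decide⟩ _).symm.trans this))
  rw [MonoidHom.range_comp, MonoidHom.range_eq_top.2 e'.symm.surjective, ← MonoidHom.range_eq_map]
  refine le_antisymm ((MonoidHom.range_eq_map ψ).trans_le (map_le_iff_le_comap.2 (eq_top_of_el fun i j h a => ?_).ge))
    ((closure_le _).2 ?_)
  · obtain ⟨r, hr, e⟩ := (by decide +kernel : ∀ i j, i ≠ j → ∃ r ∈ T, (r : ℕ) = ρ i j) i j h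
    rw [mem_comap, hψ i j h, ← e, xN_val]
    rcases (by decide : ∀ a : ZMod 2, a = 0 ∨ a = 1) a with rfl | rfl
    · simp [one_mem]
    · exact subset_closure ⟨r, hr, by simp⟩
  · rintro _ ⟨r, hr, rfl⟩
    obtain ⟨i, j, h, e⟩ := (by decide +kernel : ∀ r ∈ T, ∃ i j, i ≠ j ∧ (r : ℕ) = ρ i j) r hr
    exact ⟨el i j 1, by rw [hψ i j h, ← e, xN_val, map_one]⟩

theorem conj_fix [IsAlgClosed L] (hB : Big chevE6 L 2) (h : orderOf ζ = 5) {φ : L →+* L} (hφ : ∀ t, φ t = t ^ 2)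
    (hL : (αE6 φ).IsLang) {x y} (hx : x * (m).tor (a0 ζ) * x⁻¹ ∈ (αE6 φ).fix) (hy : y ∈ (αE6 φ).fix) (h5 : y ^ 5 = 1) (h1 : y ≠ 1) :
    ∃ g ∈ (αE6 φ).fix, g * (x * (m).tor (a0 ζ) * x⁻¹) * g⁻¹ = y := by
  obtain ⟨z, a, e⟩ := hB.exists_conj_tor (by decide) h5
  obtain ⟨w, hw⟩ := exists_cell (stS_U_univ chevE6 L ▸ mem_top ((αE6 φ).σ z * z⁻¹))
  have e1 := tor_injectiveE6 L ((cv).tor_eq_of_conj m hw (a := a) (by
    rw [← σ_tor hφ, ← e, map_mul, map_mul, Aut.mem_fix.1 hy, map_inv]; group))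
  obtain ⟨g, hg⟩ := isConj_iff.1 ((isConj_iff.2 ⟨x, rfl⟩).symm.trans ((conj_tor h (a := a)
    (tor_injectiveE6 L (by rw [map_pow, ← e, conj_pow, h5]; simp)) (by rintro rfl; exact h1 (by simpa using e))
    (symE6.ρ.trans (MulAction.toPerm w⁻¹)) fun r => by
      rw [← chi_wt w, e1, Equiv.trans_apply, MulAction.toPerm_apply, smul_inv_smul, chi, chi, ← Finset.prod_pow,
        ← Equiv.prod_comp symE6.π]
      exact Finset.prod_congr rfl fun i _ => by
        rw [Equiv.symm_apply_apply, (by decide +kernel : ∀ i r, car (symE6.π i) (symE6.ρ r) = car i r), ← zpow_natCast,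
          ← zpow_natCast, zpow_comm]).symm.trans (isConj_iff.2 ⟨z, e⟩).symm))
  obtain ⟨g', b1, b2⟩ := conj_of_lang (z := g) hx (hg ▸ hy) fun b => hL _ (fun y hy => by
    rw [mem_centralizer_singleton_iff] at *
    rw [← Aut.mem_fix.1 hx, ← map_mul, ← map_mul, hy]) (fun y hy => by
      obtain ⟨w, u, hu, z, hz, n, hn, -, u', hu', e⟩ := cent (CharP.cast_eq_zero L 2) h (y := x⁻¹ * y * x) (by
        rw [mem_centralizer_singleton_iff] at *
        simpa [mul_assoc] using congrArg (x⁻¹ * · * x) hy)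
      have : x⁻¹ * y * x ∈ (X).H ⊔ (X).U T := e ▸ mul_mem (mul_mem (mul_mem (mem_sup_right ((X).U_mono (fun _ h => h.2) hu))
        (mem_sup_left hz)) (mem_sup_right (Q0_le hn))) (mem_sup_right ((X).U_mono (fun _ h => h.2) hu'))
      simpa [mul_assoc] using con_conj (x := x) (fun z hz => by
        have := mem_centralizer_singleton_iff.1 ((m).cj_fix _ ▸ sup_le ((m).H_le_cj _) (ker_a0 h ▸ (m).U_Ker_le _) hz)
        rw [mem_centralizer_singleton_iff]
        simpa [mul_assoc] using congrArg (x * · * x⁻¹) this) ((m).sup_le_con T this)) b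
  exact ⟨g', b1, b2.trans hg⟩

end Cfsg.Agent.Known.O5
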